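import Groth.Agent.Models.H54.Proj
import Groth.Agent.Dix.MinusCurve

/-!
# Regular proper models of curves over a discrete valuation ring are arithmetic surfaces
-/

set_option autoImplicit false
universe u
open CategoryTheory CategoryTheory.Limits AlgebraicGeometry IsLocalRing TopologicalSpace

namespace Groth.Agent.Models.H54.Bridge

open Groth.Agent.Dix.GenFibre Groth.Agent.Dix.NeronEllB

variable {R : Type u} [CommRing R] [IsDomain R] [IsDiscreteValuationRing R]

/-- The identification of the curve with the generic fibre. -/
noncomputable def genIso {C X : Scheme.{u}} {f : C ⟶ Spec (CommRingCat.of (FractionRing R))}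
    {p : X ⟶ Spec (CommRingCat.of R)} {g : C ⟶ X}
    (hg : IsPullback g f p (Spec.map (CommRingCat.ofHom (algebraMap R (FractionRing R))))) :
    C ≅ ((Neron.genericFibre R).obj (Over.mk p)).left :=
  IsPullback.isoIsPullback X (Spec (CommRingCat.of (FractionRing R))) hg (isPullback_genι (Over.mk p))

@[reassoc]
theorem genIso_hom_genι {C X : Scheme.{u}} {f : C ⟶ Spec (CommRingCat.of (FractionRing R))}
    {p : X ⟶ Spec (CommRingCat.of R)} {g : C ⟶ X}
    (hg : IsPullback g f p (Spec.map (CommRingCat.ofHom (algebraMap R (FractionRing R))))) :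
    (genIso hg).hom ≫ genι (Over.mk p) = g :=
  IsPullback.isoIsPullback_hom_fst _ _ hg (isPullback_genι (Over.mk p))

@[reassoc]
theorem genIso_hom_hom {C X : Scheme.{u}} {f : C ⟶ Spec (CommRingCat.of (FractionRing R))}
    {p : X ⟶ Spec (CommRingCat.of R)} {g : C ⟶ X}
    (hg : IsPullback g f p (Spec.map (CommRingCat.ofHom (algebraMap R (FractionRing R))))) :
    (genIso hg).hom ≫ ((Neron.genericFibre R).obj (Over.mk p)).hom = f :=
  IsPullback.isoIsPullback_hom_snd _ _ hg (isPullback_genι (Over.mk p))

section

variable {C X : Scheme.{u}} {f : C ⟶ Spec (CommRingCat.of (FractionRing R))}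
    {p : X ⟶ Spec (CommRingCat.of R)} (hX : Models.IsRegularProperModel R X p C f)

include hX

theorem irreducibleSpace_genericFibre [IrreducibleSpace C] :
    IrreducibleSpace ((Neron.genericFibre R).obj (Over.mk p)).left := by
  obtain ⟨⟨-, -, -, g, hg⟩, -, -⟩ := hX
  exact Function.Surjective.irreducibleSpace (genIso hg).hom.homeomorph.continuous
    (genIso hg).hom.homeomorph.surjective

theorem topologicalKrullDim_genericFibre (hdim : topologicalKrullDim C = 1) :
    topologicalKrullDim ((Neron.genericFibre R).obj (Over.mk p)).left = 1 := by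
  obtain ⟨⟨-, -, -, g, hg⟩, -, -⟩ := hX
  rw [← hdim]
  exact (IsHomeomorph.topologicalKrullDim_eq (genIso hg).hom.homeomorph
    (genIso hg).hom.homeomorph.isHomeomorph).symm

theorem flat : Flat p := hX.1.1

theorem isProper : IsProper p := hX.2.1

theorem isRegular (x : X) : IsRegularLocalRing (X.presheaf.stalk x) := hX.2.2 x

/-- A regular proper model of an irreducible curve is integral. -/
theorem isIntegral [IrreducibleSpace C] : IsIntegral X := by
  have h1 : Flat (Over.mk p).hom := flat hX
  have h2 := irreducibleSpace_genericFibre hX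
  exact isIntegral_left (Over.mk p) (fun x => isRegular hX x)

theorem topologicalKrullDim_eq_two [IrreducibleSpace C] (hdim : topologicalKrullDim C = 1) :
    topologicalKrullDim X = 2 := by
  have h1 : Flat (Over.mk p).hom := flat hX
  have h2 := irreducibleSpace_genericFibre hX
  have h3 : IsProper (Over.mk p).hom := isProper hX
  have h4 : IsIntegral (Over.mk p).left := isIntegral hX
  exact SurfGeom.topologicalKrullDim_eq_two (Over.mk p) (topologicalKrullDim_genericFibre hX hdim)

theorem ringKrullDim_stalk_of_isClosed [IrreducibleSpace C] (hdim : topologicalKrullDim C = 1)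
    (x : X) (hx : IsClosed ({x} : Set X)) : ringKrullDim (X.presheaf.stalk x) = 2 := by
  have h1 : Flat (Over.mk p).hom := flat hX
  have h2 := irreducibleSpace_genericFibre hX
  have h3 : IsProper (Over.mk p).hom := isProper hX
  have h4 : IsIntegral (Over.mk p).left := isIntegral hX
  exact SurfGeom.ringKrullDim_stalk_of_isClosed (Over.mk p) (topologicalKrullDim_genericFibre hX hdim) x hx

/-- A regular proper model of a curve is a regular proper surface. -/
theorem isRegSurf [IrreducibleSpace C] (hdim : topologicalKrullDim C = 1) :
    Groth.Agent.Dix.MinusCurve.IsRegSurf R (Over.mk p) :=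
  ⟨isRegular hX, isIntegral hX, topologicalKrullDim_eq_two hX hdim, flat hX, isProper hX⟩

/-- **Lichtenbaum.** A regular proper model of a curve over a discrete valuation ring is a (projective) arithmetic
surface. -/
theorem isArithSurface [IrreducibleSpace C] (hdim : topologicalKrullDim C = 1) :
    ArSurf.IsArithSurface R (Over.mk p) := by
  have h1 : Flat (Over.mk p).hom := flat hX
  have h3 : IsProper (Over.mk p).hom := isProper hX
  have h4 : IsIntegral (Over.mk p).left := isIntegral hX
  exact Proj.isArithSurface (Over.mk p) (fun x => isRegular hX x) (topologicalKrullDim_eq_two hX hdim)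
    (fun x hx => ringKrullDim_stalk_of_isClosed hX hdim x hx)

theorem isRegSurf_of_curve (hC : Curve.IsSmoothProperCurve (FractionRing R) C f) :
    Groth.Agent.Dix.MinusCurve.IsRegSurf R (Over.mk p) := by
  have := hC.2.2.1
  exact isRegSurf hX hC.2.2.2

theorem isArithSurface_of_curve (hC : Curve.IsSmoothProperCurve (FractionRing R) C f) :
    ArSurf.IsArithSurface R (Over.mk p) := by
  have := hC.2.2.1
  exact isArithSurface hX hC.2.2.2

end

end Groth.Agent.Models.H54.Bridge
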