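import Mathlib.RingTheory.Ideal.KrullsHeightTheorem
import Mathlib.RingTheory.KrullDimension.Basic
import Mathlib.RingTheory.LocalRing.MaximalIdeal.Basic

/-!
# A Noetherian local domain of dimension at least two has a height one prime avoiding a given element
-/

set_option autoImplicit false
universe u

namespace Groth.Agent.Models.H54.HorAlg

open IsLocalRing

theorem exists_prime_height_one {A : Type u} [CommRing A] [IsDomain A] [IsNoetherianRing A] [IsLocalRing A]
    (hd : 2 ≤ ringKrullDim A) (t : A) (ht : t ≠ 0) :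
    ∃ q : Ideal A, q.IsPrime ∧ q.height = 1 ∧ t ∉ q := by
  classical
  have hm : (2 : ℕ∞) ≤ (maximalIdeal A).height := by
    have h1 := IsLocalRing.maximalIdeal_height_eq_ringKrullDim (R := A)
    rw [← h1] at hd
    exact WithBot.coe_le_coe.1 hd
  have hfin : (Ideal.span {t}).minimalPrimes.Finite := Ideal.finite_minimalPrimes_of_isNoetherianRing A _
  let S : Finset (Ideal A) := insert ⊥ hfin.toFinset
  have hS : ∀ P ∈ S, P.IsPrime ∧ P.height ≤ 1 := by
    intro P hP
    rcases Finset.mem_insert.1 hP with rfl | hP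
    · refine ⟨Ideal.isPrime_bot, ?_⟩
      rw [Ideal.height_bot]
      exact zero_le_one
    · have hP' := hfin.mem_toFinset.1 hP
      exact ⟨hP'.1.1, Ideal.height_le_one_of_isPrincipal_of_mem_minimalPrimes _ P hP'⟩
  have havoid : ¬ ((maximalIdeal A : Set A) ⊆ ⋃ P ∈ (S : Set (Ideal A)), (P : Set A)) := by
    intro h
    have h1 := (Ideal.subset_union_prime (f := fun P : Ideal A => P) (s := S) ⊥ ⊥
      (fun P hP _ _ => (hS P hP).1)).1 h
    obtain ⟨P, hP, hle⟩ := h1
    have h2 := Ideal.height_mono hle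
    have h3 := (hm.trans h2).trans (hS P hP).2
    norm_num at h3
  obtain ⟨f, hfm, hf⟩ := Set.not_subset.1 havoid
  have hf0 : f ≠ 0 := by
    rintro rfl
    apply hf
    simp only [Set.mem_iUnion]
    exact ⟨⊥, by simp [S], by simp⟩
  have hfP : ∀ P ∈ (Ideal.span {t}).minimalPrimes, f ∉ P := by
    intro P hP hfP
    apply hf
    simp only [Set.mem_iUnion]
    exact ⟨P, by simp [S, hP], hfP⟩
  have hle : Ideal.span {f} ≤ maximalIdeal A := by
    rw [Ideal.span_singleton_le_iff_mem]; exact hfm
  obtain ⟨q, hq, -⟩ := Ideal.exists_minimalPrimes_le hle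
  have hqp : q.IsPrime := hq.1.1
  have hfq : f ∈ q := hq.1.2 (Ideal.mem_span_singleton_self f)
  have hq0 : q ≠ ⊥ := by
    rintro rfl
    exact hf0 (by simpa using hfq)
  have hq1 : q.height = 1 := by
    apply le_antisymm (Ideal.height_le_one_of_isPrincipal_of_mem_minimalPrimes _ q hq)
    rw [Order.one_le_iff_ne_zero]
    intro h
    exact hq0 (Ideal.height_eq_zero_iff_eq_bot.1 h)
  refine ⟨q, hqp, hq1, fun htq => ?_⟩
  have hle' : Ideal.span {t} ≤ q := by
    rw [Ideal.span_singleton_le_iff_mem]; exact htq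
  obtain ⟨P, hP, hPq⟩ := Ideal.exists_minimalPrimes_le hle'
  have hPp : P.IsPrime := hP.1.1
  have htP : t ∈ P := hP.1.2 (Ideal.mem_span_singleton_self t)
  rcases eq_or_lt_of_le hPq with rfl | hlt
  · exact hfP P hP hfq
  · have h1 := Ideal.height_add_one_le_of_lt_of_isPrime hlt
    have h2 : P.height ≠ 0 := fun h => by
      have h3 := Ideal.height_eq_zero_iff_eq_bot.1 h
      rw [h3] at htP
      exact ht (by simpa using htP)
    rw [hq1] at h1
    have h3 : P.height + 1 ≤ 0 + 1 := by simpa using h1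
    have h4 : P.height ≤ 0 := (ENat.add_le_add_iff_right (by simp)).1 h3
    exact h2 (le_antisymm h4 (by simp))

end Groth.Agent.Models.H54.HorAlg
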