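import Groth.Prelude.Def_ModelsG
import Mathlib.AlgebraicGeometry.Morphisms.Separated
import Mathlib.AlgebraicGeometry.Morphisms.SchemeTheoreticallyDominant
import Groth.Agent.CurvesC.RegNormal

/-!
# Mapping property of the minimal model: formal part

* `contractionSeq_comp_iso`: `IsContractionSeq` is stable under composition with an isomorphism on the right.
* `isSchemeTheoreticallyDominant_of_isPullback`: the generic fibre of a flat `R`-scheme is scheme-theoretically dense.
* `hom_ext_of_generic`: two `R`-morphisms to a separated `R`-scheme agreeing on the generic fibre are equal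
  (source flat and reduced).
-/

set_option autoImplicit false
universe u
open CategoryTheory CategoryTheory.Limits AlgebraicGeometry

namespace Groth.Agent.Models.H54.MapProp

/-- A contraction sequence followed by an isomorphism is a contraction sequence. -/
theorem contractionSeq_comp_iso {Y X : Scheme.{u}} {b : Y ⟶ X} (hb : Models.IsContractionSeq b) :
    ∀ {X' : Scheme.{u}} (e : X ≅ X'), Models.IsContractionSeq (b ≫ e.hom) := by
  induction hb with
  | iso e => intro X' e'; exact Models.IsContractionSeq.iso (e ≪≫ e')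
  | step ι b r hι hE hb hr ih =>
    intro X' e'
    rw [Category.assoc]
    exact Models.IsContractionSeq.step ι b _ hι hE hb (ih e')

section Density

variable (R : Type u) [CommRing R] [IsDomain R]

theorem isSchemeTheoreticallyDominant_of_isPullback {C X : Scheme.{u}}
    {f : C ⟶ Spec (CommRingCat.of (FractionRing R))} {p : X ⟶ Spec (CommRingCat.of R)} [Flat p]
    {g : C ⟶ X} (hg : IsPullback g f p (Spec.map (CommRingCat.ofHom (algebraMap R (FractionRing R))))) :
    IsSchemeTheoreticallyDominant g := by
  have h0 : IsDominant (Spec.map (CommRingCat.ofHom (algebraMap R (FractionRing R)))) := by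
    constructor
    change DenseRange (PrimeSpectrum.comap (algebraMap R (FractionRing R)))
    rw [PrimeSpectrum.denseRange_comap_iff_ker_le_nilRadical,
      (RingHom.injective_iff_ker_eq_bot _).mp (IsFractionRing.injective R (FractionRing R))]
    exact bot_le
  have h1 : IsSchemeTheoreticallyDominant (Spec.map (CommRingCat.ofHom (algebraMap R (FractionRing R)))) :=
    IsSchemeTheoreticallyDominant.of_isDominant _
  exact IsSchemeTheoreticallyDominant.of_isPullback hg.flip

omit [IsDomain R] in
theorem quasiCompact_of_isPullback {C X : Scheme.{u}}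
    {f : C ⟶ Spec (CommRingCat.of (FractionRing R))} {p : X ⟶ Spec (CommRingCat.of R)}
    {g : C ⟶ X} (hg : IsPullback g f p (Spec.map (CommRingCat.ofHom (algebraMap R (FractionRing R))))) :
    QuasiCompact g :=
  MorphismProperty.of_isPullback hg.flip inferInstance

/-- Two `R`-morphisms from a reduced flat `R`-scheme to a separated `R`-scheme which agree on the generic fibre
are equal. -/
theorem hom_ext_of_generic {C X Y : Scheme.{u}}
    {f : C ⟶ Spec (CommRingCat.of (FractionRing R))} {q : Y ⟶ Spec (CommRingCat.of R)} [Flat q] [IsReduced Y]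
    {g : C ⟶ Y} (hg : IsPullback g f q (Spec.map (CommRingCat.ofHom (algebraMap R (FractionRing R)))))
    (p : X ⟶ Spec (CommRingCat.of R)) [IsSeparated p] {b₁ b₂ : Y ⟶ X}
    (h₁ : b₁ ≫ p = q) (h₂ : b₂ ≫ p = q) (h : g ≫ b₁ = g ≫ b₂) : b₁ = b₂ := by
  have := isSchemeTheoreticallyDominant_of_isPullback R hg
  have := quasiCompact_of_isPullback R hg
  exact ext_of_isDominant_of_isSeparated p (h₁.trans h₂.symm) g h

end Density

/-- A scheme all of whose local rings are regular is reduced. -/
theorem isReduced_of_isRegularScheme {X : Scheme.{u}} (hX : Models.IsRegularScheme X) : IsReduced X := by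
  have h (x : X) : IsDomain (X.presheaf.stalk x) := by
    have := hX x
    exact Groth.Agent.CurvesC.RegNormal.isDomain _
  exact isReduced_of_isReduced_stalk X

/-- The mapping property of the minimal model, from the existence of a contraction to some minimal model
(the statement S3329 for `Y`) and the uniqueness of the minimal model (the statement S3330). -/
theorem mapping_property_of (R : Type u) [CommRing R] [IsDomain R] [IsDiscreteValuationRing R]
    (C X Y : Scheme.{u}) (f : C ⟶ Spec (CommRingCat.of (FractionRing R)))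
    (p : X ⟶ Spec (CommRingCat.of R)) (q : Y ⟶ Spec (CommRingCat.of R))
    (hX : Models.IsMinimalModel R X p C f) (hY : Models.IsRegularProperModel R Y q C f)
    (gX : C ⟶ X) (hgX : IsPullback gX f p (Spec.map (CommRingCat.ofHom (algebraMap R (FractionRing R)))))
    (gY : C ⟶ Y) (hgY : IsPullback gY f q (Spec.map (CommRingCat.ofHom (algebraMap R (FractionRing R)))))
    (H29 : ∃ (X : Scheme.{u}) (p : X ⟶ Spec (CommRingCat.of R)) (gX : C ⟶ X) (b : Y ⟶ X),
      Models.IsMinimalModel R X p C f ∧
      IsPullback gX f p (Spec.map (CommRingCat.ofHom (algebraMap R (FractionRing R)))) ∧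
      b ≫ p = q ∧ gY ≫ b = gX ∧ Models.IsContractionSeq b)
    (H30 : ∀ (X₁ X₂ : Scheme.{u})
      (p₁ : X₁ ⟶ Spec (CommRingCat.of R)) (p₂ : X₂ ⟶ Spec (CommRingCat.of R)),
      Models.IsMinimalModel R X₁ p₁ C f → Models.IsMinimalModel R X₂ p₂ C f →
      ∀ (g₁ : C ⟶ X₁), IsPullback g₁ f p₁ (Spec.map (CommRingCat.ofHom (algebraMap R (FractionRing R)))) →
      ∀ (g₂ : C ⟶ X₂), IsPullback g₂ f p₂ (Spec.map (CommRingCat.ofHom (algebraMap R (FractionRing R)))) →
      ∃! e : X₁ ≅ X₂, e.hom ≫ p₂ = p₁ ∧ g₁ ≫ e.hom = g₂) :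
    (∃! b : Y ⟶ X, b ≫ p = q ∧ gY ≫ b = gX) ∧
      ∀ b : Y ⟶ X, b ≫ p = q → gY ≫ b = gX → Models.IsContractionSeq b := by
  have hflat : Flat q := hY.1.1
  have hred : IsReduced Y := isReduced_of_isRegularScheme hY.2.2
  have hprop : IsProper p := hX.1.2.1
  obtain ⟨X', p', gX', b', hX', hgX', hb', hgb', hseq⟩ := H29
  obtain ⟨e, ⟨he₁, he₂⟩, -⟩ := H30 X' X p' p hX' hX gX' hgX' gX hgX
  have hu : ∀ c : Y ⟶ X, c ≫ p = q ∧ gY ≫ c = gX → c = b' ≫ e.hom := by
    rintro c ⟨hc₁, hc₂⟩
    refine hom_ext_of_generic R hgY p hc₁ ?_ ?_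
    · rw [Category.assoc, he₁, hb']
    · rw [hc₂, ← Category.assoc, hgb', he₂]
  refine ⟨⟨b' ≫ e.hom, ⟨?_, ?_⟩, hu⟩, ?_⟩
  · rw [Category.assoc, he₁, hb']
  · rw [← Category.assoc, hgb', he₂]
  · intro c hc₁ hc₂
    rw [hu c ⟨hc₁, hc₂⟩]
    exact contractionSeq_comp_iso hseq e

end Groth.Agent.Models.H54.MapProp
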