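import Groth.Prelude.Def_ModelsG
import Groth.Agent.Dix.NeronEllB
import Groth.Agent.CycB.SetupDVR
import Groth.Agent.Models.H54.MapProp
import Groth.Agent.Dix.ContractSurf

/-!
# Regular proper models of curves over a discrete valuation ring: integrality and dimension

For `X` proper flat over a discrete valuation ring, regular, with irreducible generic fibre of dimension one:
`X` is integral, Noetherian, of dimension 2, and its local rings at closed points are of dimension 2.
-/

set_option autoImplicit false
universe u
open CategoryTheory CategoryTheory.Limits AlgebraicGeometry IsLocalRing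

namespace Groth.Agent.Models.H54.SurfGeom

open Groth.Agent.Dix.GenFibre Groth.Agent.VarietyB Groth.Agent.Dix.NeronEllB

section General

variable {R : Type u} [CommRing R] [IsDomain R] [IsDiscreteValuationRing R]

theorem isUniversallyCatenary_dvr (R : Type u) [CommRing R] [IsDomain R] [IsDiscreteValuationRing R] :
    CAlg.IsUniversallyCatenary R :=
  Groth.Agent.CycB.SetupDVR.isUniversallyCatenary_of_isRegularLocalRing R

variable (X : Over (Spec (CommRingCat.of R)))

/-- The image of a closed point of a proper `R`-scheme is the closed point. -/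
theorem hom_eq_closedPoint_of_isClosed [UniversallyClosed X.hom] (x : X.left) (hx : IsClosed ({x} : Set X.left)) :
    X.hom x = (closedPoint R : PrimeSpectrum R) := by
  have h7 : IsClosed ({X.hom x} : Set (Spec (CommRingCat.of R))) := by
    have h8 := X.hom.isClosedMap _ hx
    rwa [Set.image_singleton] at h8
  have h9 : (X.hom x).asIdeal.IsMaximal := (PrimeSpectrum.isClosed_singleton_iff_isMaximal _).mp h7
  exact PrimeSpectrum.ext (IsLocalRing.eq_maximalIdeal h9)

/-- Local rings at closed points have dimension two. -/
theorem ringKrullDim_stalk_of_isClosed [Flat X.hom] [IsProper X.hom] [IsIntegral X.left]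
    [IrreducibleSpace ((Neron.genericFibre R).obj X).left]
    (hdim : topologicalKrullDim ((Neron.genericFibre R).obj X).left = 1)
    (x : X.left) (hx : IsClosed ({x} : Set X.left)) :
    ringKrullDim (X.left.presheaf.stalk x) = 2 := by
  have hdim' : topologicalKrullDim ((Neron.genericFibre R).obj X).left = ((1 : ℕ) : WithBot ℕ∞) := by
    rw [hdim]; rfl
  obtain ⟨V, hV, hxV, -⟩ := exists_isAffineOpen_mem_and_subset (X := X.left) (U := ⊤) (x := x) trivial
  obtain ⟨alg, h1, h2, h3⟩ := exists_algebra_chart X hV ⟨x, hxV⟩
  have : Nonempty V := ⟨x, hxV⟩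
  have h4 := trdeg_chart X hdim' Γ(X.left, V) hV.fromSpec h1
  have hmax := hV.primeIdealOf_isMaximal_of_isClosed ⟨x, hxV⟩ hx
  have h6 : (hV.primeIdealOf ⟨x, hxV⟩).asIdeal.under R = maximalIdeal R := by
    have h9 := hom_eq_closedPoint_of_isClosed X x hx
    have h10 : (hV.fromSpec ≫ X.hom) (hV.primeIdealOf ⟨x, hxV⟩) = X.hom x := by
      rw [Scheme.Hom.comp_apply, hV.fromSpec_primeIdealOf]
    rw [h1] at h10
    have h11 : (hV.primeIdealOf ⟨x, hxV⟩).asIdeal.under R = (X.hom x).asIdeal := by
      rw [← h10]; rfl
    rw [h11, h9]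
    rfl
  have h7 := height_eq_two (isUniversallyCatenary_dvr R) Γ(X.left, V) (by rw [h4]; norm_cast)
    (hV.primeIdealOf ⟨x, hxV⟩).asIdeal h6
  let _ : Algebra Γ(X.left, V) (X.left.presheaf.stalk x) := (X.left.presheaf.germ V x hxV).hom.toAlgebra
  have h8 : IsLocalization.AtPrime (X.left.presheaf.stalk x) (hV.primeIdealOf ⟨x, hxV⟩).asIdeal :=
    hV.isLocalization_stalk ⟨x, hxV⟩
  rw [IsLocalization.AtPrime.ringKrullDim_eq_height (hV.primeIdealOf ⟨x, hxV⟩).asIdeal, h7]
  rfl

/-- A regular proper flat scheme over a discrete valuation ring with irreducible generic fibre of dimension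
one has dimension two. -/
theorem topologicalKrullDim_eq_two [Flat X.hom] [IsProper X.hom] [IsIntegral X.left]
    [IrreducibleSpace ((Neron.genericFibre R).obj X).left]
    (hdim : topologicalKrullDim ((Neron.genericFibre R).obj X).left = 1) :
    topologicalKrullDim X.left = 2 := by
  have hdim' : topologicalKrullDim ((Neron.genericFibre R).obj X).left = ((1 : ℕ) : WithBot ℕ∞) := by
    rw [hdim]; rfl
  apply le_antisymm
  · apply DimTop.topologicalKrullDim_le_of_forall
    intro x
    obtain ⟨V, hV, hx, -⟩ := exists_isAffineOpen_mem_and_subset (X := X.left) (U := ⊤) (x := x) trivial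
    refine ⟨V, hx, ?_⟩
    obtain ⟨alg, h1, h2, h3⟩ := exists_algebra_chart X hV ⟨x, hx⟩
    have : Nonempty V := ⟨x, hx⟩
    rw [DimSch.topologicalKrullDim_affineOpen hV]
    have h4 := trdeg_chart X hdim' Γ(X.left, V) hV.fromSpec h1
    exact ringKrullDim_le_two (isUniversallyCatenary_dvr R) _ (by rw [h4]; norm_cast)
  · have : CompactSpace X.left := QuasiCompact.compactSpace_of_compactSpace X.hom
    obtain ⟨x, -, hx⟩ := IsClosed.exists_closed_singleton (X := X.left) isClosed_univ Set.univ_nonempty
    have h1 := ringKrullDim_stalk_of_isClosed X hdim x hx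
    rw [← h1, Groth.Agent.Dix.ContractSurf.topologicalKrullDim_eq]
    exact le_iSup (fun x : X.left => ringKrullDim (X.left.presheaf.stalk x)) x

end General

end Groth.Agent.Models.H54.SurfGeom
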