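import Groth.Prelude.Def_ModelsG
import Groth.Agent.S1684
import Groth.Agent.Dix.RegTwoDim
import Groth.Agent.Dix.VertGeom
import Groth.Agent.CycA.ClosurePt
import Groth.Agent.Models.H54.SurfGeom
import Groth.Agent.Models.H54.HorAlg

/-!
# Horizontal prime divisors through closed points of a regular surface over a discrete valuation ring
-/

set_option autoImplicit false
universe u
open CategoryTheory CategoryTheory.Limits AlgebraicGeometry IsLocalRing

namespace Groth.Agent.Models.H54.HorCartier

open Groth.Agent.CycB.LocQuot Groth.Agent.Divis.StalkPrime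

/-- The ideal of an integral closed subscheme of codimension one in a regular scheme of dimension at most two is
an effective Cartier divisor. -/
theorem isEff_ker {X Z : Scheme.{u}} [IsLocallyNoetherian X] (hreg : ∀ x : X, IsRegularLocalRing (X.presheaf.stalk x))
    (hdim : topologicalKrullDim X ≤ 2) (i : Z ⟶ X) [IsClosedImmersion i] [IsIntegral Z]
    (h1 : ringKrullDim (X.presheaf.stalk (i (genericPoint Z))) = 1) : BlowUp.IsEffCartierIdeal i.ker := by
  have hint : IsIntegral i.ker.subscheme := by
    have : IsIntegral i.image := IsIntegral.of_isIso i.toImage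
    exact this
  refine Groth.Agent.S1684.result X i.ker ?_ ?_
  · have h2 : i.ker.subschemeι (genericPoint i.ker.subscheme) = i (genericPoint Z) := by
      have h3 : i.toImage ≫ i.imageι = i := i.toImage_imageι
      have h4 : i.toImage (genericPoint Z) = genericPoint i.image :=
        ((genericPoint_specializes (i.toImage (genericPoint Z))).antisymm (by
          have h5 : (genericPoint i.image) ∈ Set.range i.toImage := by
            have : Function.Surjective i.toImage := i.toImage.homeomorph.surjective
            exact this _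
          obtain ⟨z, hz⟩ := h5
          rw [← hz]
          exact (genericPoint_specializes z).map i.toImage.continuous)).eq.symm
      calc i.ker.subschemeι (genericPoint i.ker.subscheme) = i.imageι (genericPoint i.image) := rfl
        _ = i.imageι (i.toImage (genericPoint Z)) := by rw [h4]
        _ = (i.toImage ≫ i.imageι) (genericPoint Z) := rfl
        _ = i (genericPoint Z) := by rw [h3]
    rw [h2, h1]
  · intro x _
    have h2 := hreg x
    have h3 : IsDomain (X.presheaf.stalk x) := Groth.Agent.CurvesC.RegNormal.isDomain _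
    refine ⟨h3, Groth.Agent.Dix.RegTwoDim.ufd ?_⟩
    refine le_trans ?_ hdim
    rw [Groth.Agent.Dix.ContractSurf.topologicalKrullDim_eq]
    exact le_iSup (fun x : X => ringKrullDim (X.presheaf.stalk x)) x

theorem basicOpen_toGlobal {R : Type u} [CommRing R] {X : Scheme.{u}} (p : X ⟶ Spec (CommRingCat.of R)) (r : R) :
    X.basicOpen (show Γ(X, ⊤) from Coh.toGlobal p r) = p ⁻¹ᵁ (PrimeSpectrum.basicOpen r) := by
  have h1 : (show Γ(X, ⊤) from Coh.toGlobal p r) =
    p.appTop.hom ((Scheme.ΓSpecIso (CommRingCat.of R)).inv.hom r) := rfl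
  rw [h1]
  have h2 : X.basicOpen (p.appTop.hom ((Scheme.ΓSpecIso (CommRingCat.of R)).inv.hom r)) =
    p ⁻¹ᵁ ((Spec (CommRingCat.of R)).basicOpen ((Scheme.ΓSpecIso (CommRingCat.of R)).inv.hom r)) :=
    (Scheme.preimage_basicOpen_top p _).symm
  rw [h2]
  congr 1
  exact basicOpen_eq_of_affine (R := CommRingCat.of R) r

variable {R : Type u} [CommRing R] [IsDomain R] [IsDiscreteValuationRing R]

theorem isUnit_stalkHom_iff (X : Over (Spec (CommRingCat.of R))) (x : X.left) (r : R) :
    IsUnit (Models.stalkHom R X x r) ↔ r ∉ (X.hom x).asIdeal := by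
  have h1 : IsUnit (Models.stalkHom R X x r) ↔
      x ∈ X.left.basicOpen (show Γ(X.left, ⊤) from Coh.toGlobal X.hom r) :=
    (Scheme.mem_basicOpen_top X.left _ x).symm
  rw [h1, basicOpen_toGlobal]
  rfl

theorem hom_eq_closedPoint_iff (X : Over (Spec (CommRingCat.of R))) (x : X.left) {ϖ : R} (hϖ : Irreducible ϖ) :
    X.hom x = (closedPoint R : PrimeSpectrum R) ↔ ¬ IsUnit (Models.stalkHom R X x ϖ) := by
  rw [isUnit_stalkHom_iff, not_not]
  constructor
  · intro h
    rw [h]
    change ϖ ∈ maximalIdeal R
    rw [hϖ.maximalIdeal_eq]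
    exact Ideal.mem_span_singleton_self ϖ
  · intro h
    apply PrimeSpectrum.ext
    change (X.hom x).asIdeal = maximalIdeal R
    symm
    refine (IsLocalRing.maximalIdeal.isMaximal R).eq_of_le (X.hom x).isPrime.ne_top ?_
    rw [hϖ.maximalIdeal_eq, Ideal.span_singleton_le_iff_mem]
    exact h

theorem stalkHom_specializes (X : Over (Spec (CommRingCat.of R))) {x ζ : X.left} (h : ζ ⤳ x) (r : R) :
    (X.left.presheaf.stalkSpecializes h).hom (Models.stalkHom R X x r) = Models.stalkHom R X ζ r := by
  have h1 := X.left.presheaf.germ_stalkSpecializes (U := ⊤) (y := x) trivial h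
  exact congrArg (fun φ => φ.hom (show Γ(X.left, ⊤) from Coh.toGlobal X.hom r)) h1

theorem stalkHom_ne_zero (X : Over (Spec (CommRingCat.of R))) [IsIntegral X.left] [Flat X.hom] (x : X.left)
    {r : R} (hr : r ≠ 0) : Models.stalkHom R X x r ≠ 0 := by
  intro h
  have h1 := stalkHom_specializes X (genericPoint_specializes x) r
  rw [h, map_zero] at h1
  have h2 : ¬ IsUnit (Models.stalkHom R X (genericPoint X.left) r) := by
    rw [← h1]; exact not_isUnit_zero
  rw [isUnit_stalkHom_iff, not_not, Groth.Agent.Dix.GenFibre.asIdeal_hom_genericPoint] at h2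
  exact hr (by simpa using h2)

/-- Through every closed point of an integral flat proper `R`-scheme at which the local ring has dimension two passes
a codimension one point of the generic fibre. -/
theorem exists_horizontal (X : Over (Spec (CommRingCat.of R))) [IsLocallyNoetherian X.left] [IsIntegral X.left]
    [Flat X.hom] (x : X.left) (hx : ringKrullDim (X.left.presheaf.stalk x) = 2) :
    ∃ ζ : X.left, ζ ⤳ x ∧ ringKrullDim (X.left.presheaf.stalk ζ) = 1 ∧
      X.hom ζ ≠ (closedPoint R : PrimeSpectrum R) := by
  obtain ⟨ϖ, hϖ⟩ := IsDiscreteValuationRing.exists_irreducible R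
  obtain ⟨q, hq, hq1, htq⟩ := HorAlg.exists_prime_height_one hx.ge (Models.stalkHom R X x ϖ)
    (stalkHom_ne_zero X x hϖ.ne_zero)
  refine ⟨ptOf ⟨q, hq⟩, ptOf_specializes _, ?_, ?_⟩
  · rw [height_eq, hq1]; rfl
  · rw [Ne, hom_eq_closedPoint_iff X _ hϖ, not_not]
    rw [← stalkHom_specializes X (ptOf_specializes (⟨q, hq⟩ : PrimeSpectrum (X.left.presheaf.stalk x)))]
    by_contra hu
    rw [← mem_ker_specMap_iff, ← primeOf_asIdeal, primeOf_ptOf] at hu
    exact htq hu

/-- A codimension one point does not specialize to another one. -/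
theorem eq_of_specializes {X : Scheme.{u}} {ζ η : X} (h : ζ ⤳ η)
    (h1 : ringKrullDim (X.presheaf.stalk ζ) = 1) (h2 : ringKrullDim (X.presheaf.stalk η) = 1) : ζ = η := by
  have h3 : Order.coheight ζ = 1 := by
    have := AlgebraicGeometry.ringKrullDim_stalk_eq_coheight (X := X) ζ
    rw [h1] at this
    exact_mod_cast this.symm
  have h4 : Order.coheight η = 1 := by
    have := AlgebraicGeometry.ringKrullDim_stalk_eq_coheight (X := X) η
    rw [h2] at this
    exact_mod_cast this.symm
  by_contra hne
  have h5 : η ≤ ζ := by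
    rw [Scheme.le_iff_specializes]; exact h
  have h6 : η < ζ := lt_of_le_not_ge h5 (fun h' => hne (by
    rw [Scheme.le_iff_specializes] at h'
    exact (h.antisymm h').eq))
  have h7 := Order.coheight_add_one_le h6
  rw [h3, h4] at h7
  norm_num at h7

end Groth.Agent.Models.H54.HorCartier
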