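import Groth.Agent.Models.H54.SurfGeom
import Groth.Agent.Models.H54.HorCartier
import Groth.Agent.Dix.FibreMin

/-!
# Dimension of the components of the closed fibre of a surface over a discrete valuation ring
-/

set_option autoImplicit false
universe u
open CategoryTheory CategoryTheory.Limits AlgebraicGeometry IsLocalRing

namespace Groth.Agent.Models.H54.DimDrop

/-- A proper closed subspace of an irreducible space has smaller dimension. -/
theorem topologicalKrullDim_le_of_isClosedEmbedding {Y X : Type*} [TopologicalSpace X] [TopologicalSpace Y]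
    [IrreducibleSpace X] (f : Y → X) (hf : Topology.IsClosedEmbedding f) (hne : Set.range f ≠ Set.univ) (n : ℕ)
    (hX : topologicalKrullDim X ≤ ((n + 1 : ℕ) : WithBot ℕ∞)) :
    topologicalKrullDim Y ≤ ((n : ℕ) : WithBot ℕ∞) := by
  refine iSup_le fun s => ?_
  let s' := s.map (TopologicalSpace.IrreducibleCloseds.map f hf.continuous)
    (TopologicalSpace.IrreducibleCloseds.map_strictMono_of_isInducing hf.isInducing)
  let T : TopologicalSpace.IrreducibleCloseds X := ⟨Set.univ, IrreducibleSpace.isIrreducible_univ X, isClosed_univ⟩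
  have h1 : s'.last < T := by
    refine lt_of_le_of_ne (fun _ _ => trivial) (fun h => hne ?_)
    rw [Set.eq_univ_iff_forall]
    intro x
    have h2 : x ∈ (s'.last : Set X) := by rw [h]; trivial
    have h3 : x ∈ closure (f '' (s.last : Set Y)) := h2
    rw [hf.isClosedMap.closure_image_eq_of_continuous hf.continuous] at h3
    exact (Set.image_subset_range f _) h3
  have h2 : (((s'.snoc T h1).length : ℕ) : WithBot ℕ∞) ≤ topologicalKrullDim X :=
    le_iSup (fun p : LTSeries (TopologicalSpace.IrreducibleCloseds X) => ((p.length : ℕ) : WithBot ℕ∞)) _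
  have h3 := h2.trans hX
  have h4 : (s'.snoc T h1).length = s.length + 1 := rfl
  rw [h4] at h3
  have h5 : s.length + 1 ≤ n + 1 := by exact_mod_cast h3
  have h6 : s.length ≤ n := by omega
  exact_mod_cast h6

/-- A domain with a nonzero nonunit has dimension at least one. -/
theorem one_le_dim {A : Type u} [CommRing A] [IsDomain A] (t : A) (ht : t ≠ 0) (h2 : ¬ IsUnit t) :
    1 ≤ ringKrullDim A := by
  have h3 : ¬ IsField A := fun h => by
      obtain ⟨b, hb⟩ := h.mul_inv_cancel ht
      exact h2 (IsUnit.of_mul_eq_one b hb)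
  have : ¬ ringKrullDim A ≤ 0 := fun h ↦ by
      have : Ring.KrullDimLE 0 A := Ring.krullDimLE_iff.mpr h
      exact h3 Ring.KrullDimLE.isField_of_isDomain
  exact Order.succ_le_of_lt (lt_of_not_ge this)

variable {R : Type u} [CommRing R] [IsDomain R] [IsDiscreteValuationRing R]

theorem ringKrullDim_stalk_eq_one (X : Over (Spec (CommRingCat.of R))) [IsLocallyNoetherian X.left] [IsIntegral X.left]
    [Flat X.hom] (x : X.left) (hx : X.hom x = (closedPoint R : PrimeSpectrum R))
    (hmin : Groth.Agent.Dix.FibreMin.IsMinPt X.hom x) : ringKrullDim (X.left.presheaf.stalk x) = 1 := by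
  obtain ⟨ϖ, hϖ⟩ := IsDiscreteValuationRing.exists_irreducible R
  apply le_antisymm
  · refine Groth.Agent.Dix.FibreMin.ringKrullDim_stalk_le_one X.hom x hmin ϖ hϖ.ne_zero ?_
    rw [hx]
    change ϖ ∈ maximalIdeal R
    rw [hϖ.maximalIdeal_eq]
    exact Ideal.mem_span_singleton_self ϖ
  · exact one_le_dim _ (HorCartier.stalkHom_ne_zero X x hϖ.ne_zero)
      ((HorCartier.hom_eq_closedPoint_iff X x hϖ).1 hx)

end Groth.Agent.Models.H54.DimDrop
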