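import Groth.Agent.Models.H54.PosDeg
import Groth.Agent.Models.H54.DimDrop
import Groth.Agent.Dix.VertGeom
import Groth.Agent.CycA.ClosurePt

/-!
# An invertible module on a regular proper surface over a discrete valuation ring, ample on the closed fibre
-/

set_option autoImplicit false
universe u
open CategoryTheory CategoryTheory.Limits AlgebraicGeometry IsLocalRing TopologicalSpace

namespace Groth.Agent.Models.H54.FibreAmple

open Groth.Agent.CurvesC.CompGeom Groth.Agent.CurvesC.NodalPos

variable {R : Type u} [CommRing R] [IsDomain R] [IsDiscreteValuationRing R]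

theorem closure_gen (Z : Scheme.{u}) (C : Set Z) (hC : C ∈ irreducibleComponents (Z : Type u)) :
    closure {(IC Z C hC).subschemeι (genericPoint (IC Z C hC).subscheme)} = C := by
  rw [← Set.image_singleton, (IC Z C hC).subschemeι.isClosedEmbedding.isClosedMap.closure_image_eq_of_continuous
    (IC Z C hC).subschemeι.continuous, genericPoint_closure, Set.image_univ, range_C]

section Comp

variable (X : Over (Spec (CommRingCat.of R)))
  {Z : Scheme.{u}} (i : Z ⟶ X.left) [IsClosedImmersion i]
  (hi : Set.range i = X.hom ⁻¹' {(closedPoint R : PrimeSpectrum R)})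

include hi in
theorem hom_apply (z : Z) : X.hom (i z) = (closedPoint R : PrimeSpectrum R) := by
  have h : i z ∈ Set.range i := ⟨z, rfl⟩
  rw [hi] at h
  exact h

include hi in
theorem isMinPt_gen (C : Set Z) (hC : C ∈ irreducibleComponents (Z : Type u)) :
    Groth.Agent.Dix.FibreMin.IsMinPt X.hom
      (i ((IC Z C hC).subschemeι (genericPoint (IC Z C hC).subscheme))) := by
  intro w hw hpw
  rw [hom_apply X i hi] at hpw
  obtain ⟨w', rfl⟩ : w ∈ Set.range i := by rw [hi]; exact hpw
  have h1 := i.isEmbedding.isInducing.specializes_iff.mp hw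
  have h2 := h1.closure_subset
  rw [closure_gen] at h2
  have h3 : closure {w'} ⊆ C := hC.2 isIrreducible_singleton.closure h2
  have h4 : w' ∈ closure {(IC Z C hC).subschemeι (genericPoint (IC Z C hC).subscheme)} := by
    rw [closure_gen]
    exact h3 (subset_closure rfl)
  have h5 := specializes_iff_mem_closure.2 h4
  rw [(h1.antisymm h5).eq]

variable [IsIntegral X.left] [IsProper X.hom] [Flat X.hom]

include hi in
theorem dim_stalk_gen (C : Set Z) (hC : C ∈ irreducibleComponents (Z : Type u)) :
    ringKrullDim (X.left.presheaf.stalk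
      (i ((IC Z C hC).subschemeι (genericPoint (IC Z C hC).subscheme)))) = 1 := by
  have hN : IsLocallyNoetherian X.left := LocallyOfFiniteType.isLocallyNoetherian X.hom
  exact DimDrop.ringKrullDim_stalk_eq_one X _ (hom_apply X i hi _) (isMinPt_gen X i hi C hC)

theorem exists_closedPt [CompactSpace Z] (C : Set Z) (hC : C ∈ irreducibleComponents (Z : Type u)) :
    ∃ y : (IC Z C hC).subscheme, IsClosed ({y} : Set (IC Z C hC).subscheme) ∧
      IsClosed ({i ((IC Z C hC).subschemeι y)} : Set X.left) := by
  have hY : CompactSpace (IC Z C hC).subscheme :=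
    (IC Z C hC).subschemeι.isClosedEmbedding.compactSpace
  obtain ⟨y, -, hy⟩ := IsClosed.exists_closed_singleton (X := (IC Z C hC).subscheme) isClosed_univ
    Set.univ_nonempty
  refine ⟨y, hy, ?_⟩
  have h1 := (((IC Z C hC).subschemeι ≫ i).isClosedEmbedding.isClosedMap _ hy)
  rw [Set.image_singleton] at h1
  exact h1

include hi in
theorem dim_comp [CompactSpace Z] (hdim : topologicalKrullDim X.left = 2)
    (hcl : ∀ x : X.left, IsClosed ({x} : Set X.left) → ringKrullDim (X.left.presheaf.stalk x) = 2)
    (C : Set Z) (hC : C ∈ irreducibleComponents (Z : Type u)) :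
    topologicalKrullDim (IC Z C hC).subscheme = 1 := by
  apply le_antisymm
  · have h := DimDrop.topologicalKrullDim_le_of_isClosedEmbedding ((IC Z C hC).subschemeι ≫ i)
      ((IC Z C hC).subschemeι ≫ i).isClosedEmbedding (fun h => ?_) 1 (by rw [hdim]; rfl)
    · exact h
    · have h1 : genericPoint X.left ∈ Set.range ((IC Z C hC).subschemeι ≫ i) := by rw [h]; trivial
      obtain ⟨y, hy⟩ := h1
      have h2 := hom_apply X i hi ((IC Z C hC).subschemeι y)
      have hy' : i ((IC Z C hC).subschemeι y) = genericPoint X.left := hy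
      rw [hy'] at h2
      have h3 := Groth.Agent.Dix.GenFibre.asIdeal_hom_genericPoint X
      rw [h2] at h3
      exact IsDiscreteValuationRing.not_a_field R h3
  · obtain ⟨y, hy, hy'⟩ := exists_closedPt X i C hC
    have h1 : y ≠ genericPoint (IC Z C hC).subscheme := by
      rintro rfl
      have h2 := hcl _ hy'
      rw [dim_stalk_gen X i hi C hC] at h2
      norm_num at h2
    refine Order.one_le_krullDim_iff.2 ⟨⟨{y}, isIrreducible_singleton, hy⟩,
      ⟨Set.univ, IrreducibleSpace.isIrreducible_univ _, isClosed_univ⟩, ?_⟩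
    refine lt_of_le_of_ne (fun _ _ => trivial) (fun h => h1 ?_)
    have h2 : genericPoint (IC Z C hC).subscheme ∈
        (⟨{y}, isIrreducible_singleton, hy⟩ : IrreducibleCloseds (IC Z C hC).subscheme) := by
      rw [h]; trivial
    exact (Set.mem_singleton_iff.1 h2).symm

end Comp

/-- The existence of an invertible module, ample on the closed fibre. -/
theorem exists_isAmple_closedFibre (X : Over (Spec (CommRingCat.of R))) [IsIntegral X.left] [IsProper X.hom]
    [Flat X.hom] (hreg : ∀ x : X.left, IsRegularLocalRing (X.left.presheaf.stalk x))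
    (hdim : topologicalKrullDim X.left = 2)
    (hcl : ∀ x : X.left, IsClosed ({x} : Set X.left) → ringKrullDim (X.left.presheaf.stalk x) = 2)
    (k : Type u) [Field k] (Z : Scheme.{u}) [Z.Over (Spec (CommRingCat.of k))]
    [IsProper (Z ↘ Spec (CommRingCat.of k))] (i : Z ⟶ X.left) [IsClosedImmersion i]
    (hi : Set.range i = X.hom ⁻¹' {(closedPoint R : PrimeSpectrum R)}) :
    ∃ L : X.left.Modules, PicF.IsInvertible L ∧ CohB1.IsAmple ((Scheme.Modules.pullback i).obj L) := by
  classical
  have hN : IsLocallyNoetherian X.left := LocallyOfFiniteType.isLocallyNoetherian X.hom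
  have hNZ : IsNoetherian Z := Groth.Agent.CurvesC.CurveCoh.noetherianSpace k Z
  have hfin : Finite (irreducibleComponents (Z : Type u)) :=
    NoetherianSpace.finite_irreducibleComponents.to_subtype
  let _ := Fintype.ofFinite (irreducibleComponents (Z : Type u))
  have key : ∀ C : irreducibleComponents (Z : Type u), ∃ (y : (IC Z C.1 C.2).subscheme) (ζ : X.left),
      ζ ⤳ i ((IC Z C.1 C.2).subschemeι y) ∧ ringKrullDim (X.left.presheaf.stalk ζ) = 1 ∧
        X.hom ζ ≠ (closedPoint R : PrimeSpectrum R) := by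
    intro C
    obtain ⟨y, hy, hy'⟩ := exists_closedPt X i C.1 C.2
    obtain ⟨ζ, h1, h2, h3⟩ := HorCartier.exists_horizontal X _ (hcl _ hy')
    exact ⟨y, ζ, h1, h2, h3⟩
  choose y ζ h1 h2 h3 using key
  choose W a ha1 ha2 ha3 ha4 using fun C => Groth.Agent.CycA.ClosurePt.exists_closure_subscheme (ζ C)
  let P : irreducibleComponents (Z : Type u) → X.left.IdealSheafData := fun C => (a C).ker
  have hP : ∀ C, BlowUp.IsEffCartierIdeal (P C) := fun C =>
    HorCartier.isEff_ker hreg hdim.le (a C) (by rw [ha3, h2])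
  have hPs : ∀ C x, x ∈ (P C).support ↔ ζ C ⤳ x := by
    intro C x
    rw [Groth.Agent.Dix.VertGeom.mem_support_ker_iff, ha4, specializes_iff_mem_closure]
  let D : X.left.IdealSheafData := ∏ C, P C ^ 1
  have hD : BlowUp.IsEffCartierIdeal D :=
    Groth.Agent.Dix.IdealQuot.isEff_prod P hP Finset.univ (fun _ => 1)
  obtain ⟨N, hN1, ⟨e⟩⟩ := Groth.Agent.Grpsch.PicGrp.exists_inverse
    (Groth.Agent.Dix.IdealModCartier.isInvertible_idealMod hD)
  have hinv : ClSub.IsInverseOf N (ClSub.idealMod D) := ⟨Groth.Agent.Ega2.Tens.swap _ _ ≪≫ e⟩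
  refine ⟨N, hN1, ?_⟩
  refine Groth.Agent.CurvesC.AmpleComp.isAmple_of_deg_pos k Z _
    (Groth.Agent.Fdesc.LocGen.isInvertible_pullback i hN1)
    (fun C hC => dim_comp X i hi hdim hcl C hC) (fun C hC => ?_)
  let _ := overC k Z C hC
  have hP' : IsProper ((IC Z C hC).subscheme ↘ (Spec (CommRingCat.of k))) :=
    inferInstanceAs (IsProper (gC k Z C hC))
  refine lt_of_lt_of_eq ?_ (Groth.Agent.Dix.InterNum.deg_congr k _ (dim_comp X i hi hdim hcl C hC)
    ((Scheme.Modules.pullbackComp (IC Z C hC).subschemeι i).app N)).symm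
  refine PosDeg.deg_pos k (dim_comp X i hi hdim hcl C hC) ((IC Z C hC).subschemeι ≫ i) hD ?_
    (y ⟨C, hC⟩) ?_ N hinv
  · intro h
    obtain ⟨C', -, -, h'⟩ := Groth.Agent.Dix.IdealQuot.support_prod P _ _ _ h
    have h4 := HorCartier.eq_of_specializes ((hPs C' _).1 h') (h2 C') (dim_stalk_gen X i hi C hC)
    exact h3 C' (by rw [h4]; exact hom_apply X i hi _)
  · have h4 : D = P ⟨C, hC⟩ ^ 1 * ∏ C' ∈ Finset.univ.erase (⟨C, hC⟩ : irreducibleComponents (Z : Type u)),
        P C' ^ 1 := (Finset.mul_prod_erase _ _ (Finset.mem_univ _)).symm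
    rw [h4, Scheme.IdealSheafData.support_mul, pow_one]
    exact Or.inl ((hPs _ _).2 (h1 _))

end Groth.Agent.Models.H54.FibreAmple
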