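import Groth.Agent.CurvesC.AmpleComp
import Groth.Agent.Dix.InterSurf

/-!
# Positivity of the degree of an effective divisor on a curve meeting it properly and non-trivially
-/

set_option autoImplicit false
universe u
open CategoryTheory CategoryTheory.Limits AlgebraicGeometry

namespace Groth.Agent.Models.H54.PosDeg

open Groth.Agent.Dix.InterNum Groth.Agent.Dix.InterSurf Groth.Agent.Dix.IdealModCartier

/-- The degree of the restriction of an effective divisor to a curve which it meets properly and non-trivially is
positive. -/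
theorem deg_pos (k : Type u) [Field k] {X Y : Scheme.{u}} [Y.Over (Spec (CommRingCat.of k))] [IsIntegral Y]
    [IsProper (Y ↘ Spec (CommRingCat.of k))] (hdim : topologicalKrullDim Y = 1) (j : Y ⟶ X)
    {D : X.IdealSheafData} (hD : BlowUp.IsEffCartierIdeal D) (hg : j (genericPoint Y) ∉ D.support)
    (y : Y) (hy : j y ∈ D.support) (L : X.Modules) (hL : ClSub.IsInverseOf L (ClSub.idealMod D)) :
    0 < Curv2.deg k Y ((Scheme.Modules.pullback j).obj L) 1 := by
  have hD' := isEff_comap_of_generic j hD hg
  obtain ⟨e⟩ := pullback_idealMod j hD hD'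
  have hinv : ClSub.IsInverseOf ((Scheme.Modules.pullback j).obj L) (ClSub.idealMod (D.comap j)) :=
    isInverseOf_congr (isInverseOf_pullback j hL) e
  rw [deg_of_effCartier k Y hdim _ hD' _ hinv, finrank_quotMod]
  let _ : (D.comap j).subscheme.Over (Spec (CommRingCat.of k)) :=
    ⟨(D.comap j).subschemeι ≫ (Y ↘ (Spec (CommRingCat.of k)))⟩
  have hP : IsProper ((D.comap j).subscheme ↘ (Spec (CommRingCat.of k))) :=
    inferInstanceAs (IsProper ((D.comap j).subschemeι ≫ (Y ↘ (Spec (CommRingCat.of k)))))
  have hne : Nonempty (D.comap j).subscheme := by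
    have h1 : y ∈ Set.range (D.comap j).subschemeι := by
      rw [Scheme.IdealSheafData.range_subschemeι, Scheme.IdealSheafData.support_comap]
      exact hy
    obtain ⟨z, -⟩ := h1
    exact ⟨z⟩
  have h2 := Groth.Agent.CurvesC.NodalPos.mm_pos k (D.comap j).subscheme
  exact_mod_cast h2

end Groth.Agent.Models.H54.PosDeg
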