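import Groth.Agent.Models.H54.FibreAmple
import Groth.Agent.S0054
import Groth.Agent.S1496
import Groth.Agent.Ega2.AmpleTransfer
import Groth.Agent.Ega2.AmpleUnit

/-!
# Lichtenbaum: a regular proper surface over a discrete valuation ring is projective
-/

set_option autoImplicit false
universe u
open CategoryTheory CategoryTheory.Limits AlgebraicGeometry IsLocalRing TopologicalSpace

namespace Groth.Agent.Models.H54.Proj

variable {R : Type u} [CommRing R] [IsDomain R] [IsDiscreteValuationRing R]

/-- The existence of an ample invertible module. -/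
theorem exists_isAmple (X : Over (Spec (CommRingCat.of R))) [IsIntegral X.left] [IsProper X.hom]
    [Flat X.hom] (hreg : ∀ x : X.left, IsRegularLocalRing (X.left.presheaf.stalk x))
    (hdim : topologicalKrullDim X.left = 2)
    (hcl : ∀ x : X.left, IsClosed ({x} : Set X.left) → ringKrullDim (X.left.presheaf.stalk x) = 2) :
    ∃ L : X.left.Modules, CohB1.IsAmple L := by
  let s : Spec (CommRingCat.of R) := (closedPoint R : PrimeSpectrum R)
  have hs : IsClosed ({s} : Set (Spec (CommRingCat.of R))) := PrimeSpectrum.isClosed_singleton_iff_isMaximal _ |>.2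
    (inferInstanceAs (maximalIdeal R).IsMaximal)
  have h1 : IsClosedImmersion ((Spec (CommRingCat.of R)).fromSpecResidueField s) :=
    isClosed_singleton_iff_isClosedImmersion.mp hs
  have h2 : IsClosedImmersion (X.hom.fiberι s) := MorphismProperty.pullback_fst _ _ h1
  let _ : (X.hom.fiber s).Over (Spec (CommRingCat.of ((Spec (CommRingCat.of R)).residueField s))) :=
    ⟨X.hom.fiberToSpecResidueField s⟩
  have h3 : IsProper ((X.hom.fiber s) ↘ (Spec (CommRingCat.of ((Spec (CommRingCat.of R)).residueField s)))) :=
    MorphismProperty.pullback_snd (P := @IsProper) X.hom ((Spec (CommRingCat.of R)).fromSpecResidueField s)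
      inferInstance
  obtain ⟨L, hL, hamp⟩ := FibreAmple.exists_isAmple_closedFibre X hreg hdim hcl
    ((Spec (CommRingCat.of R)).residueField s) (X.hom.fiber s) (X.hom.fiberι s) (X.hom.range_fiberι s)
  obtain ⟨V, hV, hVW⟩ := Groth.Agent.S0054.result X.hom L hL s hamp
  have hVtop : V = ⊤ := by
    rw [eq_top_iff]
    intro x _
    exact ((IsLocalRing.specializes_closedPoint (R := R) (show PrimeSpectrum R from x)).mem_open V.isOpen hV)
  have h4 := hVW ⊤ hVtop.ge (isAffineOpen_top _)
  refine ⟨L, ?_⟩
  rw [Groth.Agent.Ega2.Ample.isAmple_restrict_ι_iff, Scheme.Hom.preimage_top] at h4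
  exact Groth.Agent.Ega2.Ample.isAmple_iff_ampleOn_top.2 h4

theorem isArithSurface (X : Over (Spec (CommRingCat.of R))) [IsIntegral X.left] [IsProper X.hom]
    [Flat X.hom] (hreg : ∀ x : X.left, IsRegularLocalRing (X.left.presheaf.stalk x))
    (hdim : topologicalKrullDim X.left = 2)
    (hcl : ∀ x : X.left, IsClosed ({x} : Set X.left) → ringKrullDim (X.left.presheaf.stalk x) = 2) :
    ArSurf.IsArithSurface R X := by
  obtain ⟨L, hL⟩ := exists_isAmple X hreg hdim hcl
  obtain ⟨m, i, hi, hi'⟩ := (Groth.Agent.S1496.result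
    ⟨_, Groth.Agent.Ega2.Weight.isAmple_structureModule (Spec (CommRingCat.of R))⟩ X.hom).1.2
      ⟨inferInstance, _, hL⟩
  exact ⟨hreg, inferInstance, hdim, inferInstance, m, i, hi, hi'⟩

end Groth.Agent.Models.H54.Proj
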